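import Cfsg.Agent.Fusion.Alperin.Criteria

/-!
A strongly closed subgroup all of whose internal maps extend to automorphisms of it is normal.
-/

set_option autoImplicit false

namespace CfsgLib.Fusion.Alperin

open CfsgLib.Fus Cfsg.FusionSystem

variable {Ω : Type*} [Group Ω] {S : Subgroup Ω} [Finite S] {p : ℕ} [Fact p.Prime]

/-- A strongly closed `Q` is normal when every map between subgroups of `Q` extends to an
automorphism of the group `Q` (its characteristic subgroups are then strongly closed). -/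
theorem isNormal_of_extend_aut (hS : IsPGroup p S) {F : Cfsg.FusionSystem S} (hF : F.IsSaturated p)
    {Q : Subgroup Ω} (hQ : F.StronglyClosed Q)
    (hext : ∀ (P : Subgroup Ω) (hPQ : P ≤ Q) (φ : P →* Ω), φ ∈ F.Hom P →
      ∃ β : MulAut Q, ∀ x : P, φ x = ((β (Subgroup.inclusion hPQ x) : Q) : Ω)) :
    F.IsNormal Q := by
  have := finite_of_le hQ.1
  have : Group.IsNilpotent Q := (hS.to_le hQ.1).isNilpotent
  obtain ⟨n, hn⟩ := Group.IsNilpotent.nilpotent' (G := Q)
  refine isNormal_of_series hS hF hQ n (fun i => (Subgroup.upperCentralSeries Q i).map Q.subtype)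
    ?_ ?_ ?_ ?_ ?_
  · simp
  · simp [hn, ← MonoidHom.range_eq_map]
  · exact fun i j hij => Subgroup.map_mono (Subgroup.upperCentralSeries_mono Q hij)
  · intro i _
    refine ⟨(Subgroup.map_subtype_le _).trans hQ.1, fun R hR φ hφ x => ?_⟩
    obtain ⟨β, hβ⟩ := hext R (hR.trans (Subgroup.map_subtype_le _)) φ hφ
    rw [hβ]
    obtain ⟨y, hy, hyx⟩ := hR x.2
    have e : Subgroup.inclusion (hR.trans (Subgroup.map_subtype_le _)) x = y := Subtype.ext hyx.symm
    rw [e]
    refine ⟨β y, ?_, rfl⟩
    have hc := Subgroup.characteristic_iff_map_eq.1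
      (inferInstance : (Subgroup.upperCentralSeries Q i).Characteristic) β
    exact hc.le ⟨y, hy, rfl⟩
  · rintro i _ g hg _ ⟨x, hx, rfl⟩
    have h := (Subgroup.mem_upperCentralSeries_succ_iff.1
      ((Subgroup.upperCentralSeries Q (i + 1)).inv_mem hx)) ⟨g, hg⟩
    refine ⟨_, h, ?_⟩
    simp [commutatorElement_def, mul_assoc]

end CfsgLib.Fusion.Alperin
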